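import Mathlib
import Cfsg.Agent.S2455
import Cfsg.Prelude.Def_GeometricClasses

set_option autoImplicit false

namespace Cfsg.Agent.Helper15.QN

section alg
variable {F : Type*} [Field F]

theorem ch2 (A : Matrix (Fin 2) (Fin 2) F) :
    A * A = A.trace • A - A.det • (1 : Matrix (Fin 2) (Fin 2) F) := by
  ext i j; fin_cases i <;> fin_cases j <;>
    simp [Matrix.mul_apply, Fin.sum_univ_two, Matrix.trace_fin_two, Matrix.det_fin_two] <;> ring

theorem anti (A B : Matrix (Fin 2) (Fin 2) F) :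
    A * B + B * A = A.trace • B + B.trace • A +
      (Matrix.trace (A * B) - A.trace * B.trace) • (1 : Matrix (Fin 2) (Fin 2) F) := by
  ext i j; fin_cases i <;> fin_cases j <;>
    simp [Matrix.mul_apply, Fin.sum_univ_two, Matrix.trace_fin_two] <;> ring

/-- quaternion relations -/
structure QRel (I J : Matrix (Fin 2) (Fin 2) F) : Prop where
  ii : I * I = -1
  jj : J * J = -1
  ji : J * I = -(I * J)

/-- twice the Hurwitz unit -/
def X (I J : Matrix (Fin 2) (Fin 2) F) : Matrix (Fin 2) (Fin 2) F := -1 + I + J + I * J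

/-- the Hurwitz unit `(-1 + i + j + k) / 2` -/
noncomputable def Sm (I J : Matrix (Fin 2) (Fin 2) F) : Matrix (Fin 2) (Fin 2) F :=
  (2⁻¹ : F) • X I J

namespace QRel
variable {I J : Matrix (Fin 2) (Fin 2) F}

theorem jij (q : QRel I J) : J * I * J = I := by
  rw [q.ji, Matrix.neg_mul, Matrix.mul_assoc, q.jj]; simp

theorem iji (q : QRel I J) : I * J * I = J := by
  rw [Matrix.mul_assoc, q.ji, Matrix.mul_neg, ← Matrix.mul_assoc, q.ii]; simp

theorem ik (q : QRel I J) : I * (I * J) = -J := by rw [← Matrix.mul_assoc, q.ii]; simp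

theorem kj (q : QRel I J) : I * J * J = -I := by rw [Matrix.mul_assoc, q.jj]; simp

theorem kk (q : QRel I J) : I * J * (I * J) = -1 := by
  rw [← Matrix.mul_assoc, q.iji, q.jj]

theorem jk (q : QRel I J) : J * (I * J) = I := by rw [← Matrix.mul_assoc, q.jij]

theorem tr_i (q : QRel I J) (h2 : (2 : F) ≠ 0) : I.trace = 0 := by
  have e := congrArg Matrix.trace q.jij
  rw [Matrix.mul_assoc, Matrix.trace_mul_comm, Matrix.mul_assoc, q.jj] at e
  simp at e
  have : (2 : F) * I.trace = 0 := by linear_combination (-1 : F) * e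
  exact (mul_eq_zero.mp this).resolve_left h2

theorem tr_j (q : QRel I J) (h2 : (2 : F) ≠ 0) : J.trace = 0 := by
  have e := congrArg Matrix.trace q.iji
  rw [Matrix.mul_assoc, Matrix.trace_mul_comm, Matrix.mul_assoc, q.ii] at e
  simp at e
  have : (2 : F) * J.trace = 0 := by linear_combination (-1 : F) * e
  exact (mul_eq_zero.mp this).resolve_left h2

theorem tr_ij (q : QRel I J) (h2 : (2 : F) ≠ 0) : (I * J).trace = 0 := by
  have e := congrArg Matrix.trace q.ji
  rw [Matrix.trace_mul_comm, Matrix.trace_neg] at e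
  have : (2 : F) * (I * J).trace = 0 := by linear_combination e
  exact (mul_eq_zero.mp this).resolve_left h2

theorem det_i (q : QRel I J) (h2 : (2 : F) ≠ 0) : I.det = 1 := by
  have e := ch2 I
  rw [q.ii, q.tr_i h2, zero_smul, zero_sub] at e
  have e00 := congrFun (congrFun e 0) 0
  simp at e00
  exact e00.symm

theorem xx (q : QRel I J) : X I J * X I J = -(X I J + X I J) - (1 + 1 + 1 + 1) := by
  unfold X
  simp only [Matrix.mul_add, Matrix.add_mul, Matrix.mul_neg, Matrix.neg_mul, Matrix.mul_one,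
    Matrix.one_mul, neg_neg, q.ii, q.jj, q.ji, q.ik, q.kj, q.kk, q.jk, q.iji]
  abel

theorem xi (q : QRel I J) : X I J * I = I * J * X I J := by
  unfold X
  simp only [Matrix.mul_add, Matrix.add_mul, Matrix.mul_neg, Matrix.neg_mul, Matrix.mul_one,
    Matrix.one_mul, neg_neg, q.ii, q.jj, q.ji, q.ik, q.kj, q.kk, q.jk, q.iji]
  abel

theorem xj (q : QRel I J) : X I J * J = I * X I J := by
  unfold X
  simp only [Matrix.mul_add, Matrix.add_mul, Matrix.mul_neg, Matrix.neg_mul, Matrix.mul_one,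
    Matrix.one_mul, neg_neg, q.ii, q.jj, q.ji, q.ik, q.kj, q.kk, q.jk, q.iji]
  abel

theorem s_sq (q : QRel I J) (h2 : (2 : F) ≠ 0) : Sm I J * Sm I J = -Sm I J - 1 := by
  unfold Sm
  rw [Matrix.smul_mul, Matrix.mul_smul, smul_smul, q.xx]
  match_scalars <;> field_simp <;> ring

theorem s_cube (q : QRel I J) (h2 : (2 : F) ≠ 0) : Sm I J * Sm I J * Sm I J = 1 := by
  rw [q.s_sq h2, Matrix.sub_mul, Matrix.neg_mul, q.s_sq h2, Matrix.one_mul]
  abel

theorem s_i (q : QRel I J) : Sm I J * I = I * J * Sm I J := by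
  unfold Sm
  rw [Matrix.smul_mul, Matrix.mul_smul, q.xi]

theorem s_j (q : QRel I J) : Sm I J * J = I * Sm I J := by
  unfold Sm
  rw [Matrix.smul_mul, Matrix.mul_smul, q.xj]

theorem tr_s (q : QRel I J) (h2 : (2 : F) ≠ 0) : (Sm I J).trace = -1 := by
  unfold Sm X
  rw [Matrix.trace_smul, Matrix.trace_add, Matrix.trace_add, Matrix.trace_add, Matrix.trace_neg,
    Matrix.trace_one, q.tr_i h2, q.tr_j h2, q.tr_ij h2]
  simp
  field_simp

theorem det_s (q : QRel I J) (h2 : (2 : F) ≠ 0) : (Sm I J).det = 1 := by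
  have e := ch2 (Sm I J)
  rw [q.s_sq h2, q.tr_s h2] at e
  have e00 := congrFun (congrFun e 0) 0
  simp at e00
  exact e00.symm

/-- the centralizer of a quaternion pair consists of scalars -/
theorem scalar_of_comm (q : QRel I J) (h2 : (2 : F) ≠ 0) (Y : Matrix (Fin 2) (Fin 2) F)
    (hI : Y * I = I * Y) (hJ : Y * J = J * Y) :
    ∃ c : F, Y = c • (1 : Matrix (Fin 2) (Fin 2) F) := by
  have hα : (Y * I).trace = 0 := by
    have e1 : (Y * I).trace = (Y * (J * I * J)).trace := by rw [q.jij]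
    have e2 : Y * (J * I * J) = J * (Y * I * J) := by
      rw [← Matrix.mul_assoc, ← Matrix.mul_assoc, hJ]
      simp only [Matrix.mul_assoc]
    rw [e2, Matrix.trace_mul_comm J (Y * I * J), Matrix.mul_assoc (Y * I) J J, q.jj] at e1
    simp at e1
    have : (2 : F) * (Y * I).trace = 0 := by linear_combination e1
    exact (mul_eq_zero.mp this).resolve_left h2
  have h3 := anti Y I
  rw [q.tr_i h2, hα, ← hI] at h3
  have h4 := congrArg (· * I) h3
  simp only [Matrix.add_mul, Matrix.smul_mul, Matrix.mul_assoc, q.ii] at h4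
  refine ⟨2⁻¹ * Y.trace, ?_⟩
  ext a b
  have h5 := congrFun (congrFun h4 a) b
  simp [Matrix.add_apply, Matrix.smul_apply, Matrix.neg_apply] at h5
  rw [Matrix.smul_apply, smul_eq_mul]
  field_simp
  linear_combination (-1 : F) * h5

end QRel

end alg

section grp
variable {F : Type*} [Field F]

theorem det_ne (g : GL (Fin 2) F) : (g : Matrix (Fin 2) (Fin 2) F).det ≠ 0 := by
  rw [← Matrix.GeneralLinearGroup.val_det_apply]
  exact Units.ne_zero _

/-- extraction of the quaternion generators -/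
theorem exists_gen (h2 : (2 : F) ≠ 0) (R : Subgroup (GL (Fin 2) F))
    (hR : Nonempty (↥R ≃* QuaternionGroup 2)) :
    ∃ i j : GL (Fin 2) F, i ∈ R ∧ j ∈ R ∧
      QRel (i : Matrix (Fin 2) (Fin 2) F) (j : Matrix (Fin 2) (Fin 2) F) ∧
      ∀ h ∈ R, ∃ m : ℕ, h = i ^ m ∨ h = j * i ^ m := by
  obtain ⟨e⟩ := hR
  obtain ⟨i', hi'⟩ : ∃ i' : ↥R, i' = e.symm (QuaternionGroup.a 1) := ⟨_, rfl⟩
  obtain ⟨j', hj'⟩ : ∃ j' : ↥R, j' = e.symm (QuaternionGroup.xa 0) := ⟨_, rfl⟩
  have r1 : j' * j' = i' * i' := by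
    rw [hi', hj', ← map_mul, ← map_mul]
    exact congrArg e.symm (by decide)
  have r2 : (i' * i') * (i' * i') = 1 := by
    rw [hi', ← map_mul, ← map_mul, ← map_one e.symm]
    exact congrArg e.symm (by decide)
  have r3 : i' * i' ≠ 1 := by
    rw [hi', ← map_mul]
    intro h
    have h' := e.symm.injective (h.trans (map_one e.symm).symm)
    revert h'
    decide
  have r4 : j' * i' = (i' * i') * i' * j' := by
    rw [hi', hj', ← map_mul, ← map_mul, ← map_mul, ← map_mul]
    exact congrArg e.symm (by decide)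
  have r5 : ∀ h : ↥R, ∃ m : ℕ, h = i' ^ m ∨ h = j' * i' ^ m := by
    intro h
    have hh : h = e.symm (e h) := (e.symm_apply_apply h).symm
    rcases hq : e h with k | k
    · refine ⟨k.val, Or.inl ?_⟩
      rw [hh, hq, hi', ← map_pow, QuaternionGroup.a_one_pow, ZMod.natCast_zmod_val]
    · refine ⟨k.val, Or.inr ?_⟩
      rw [hh, hq, hi', hj', ← map_pow, ← map_mul, QuaternionGroup.a_one_pow,
        ZMod.natCast_zmod_val, QuaternionGroup.xa_mul_a, zero_add]
  -- matrix level
  have m1 : ((j' : GL (Fin 2) F) : Matrix (Fin 2) (Fin 2) F) * (j' : GL (Fin 2) F) =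
      ((i' : GL (Fin 2) F) : Matrix (Fin 2) (Fin 2) F) * (i' : GL (Fin 2) F) := by
    have := congrArg (fun g : ↥R => ((g : GL (Fin 2) F) : Matrix (Fin 2) (Fin 2) F)) r1
    simpa only [Subgroup.coe_mul, Units.val_mul] using this
  have m2 : (((i' : GL (Fin 2) F) : Matrix (Fin 2) (Fin 2) F) * (i' : GL (Fin 2) F)) *
      (((i' : GL (Fin 2) F) : Matrix (Fin 2) (Fin 2) F) * (i' : GL (Fin 2) F)) = 1 := by
    have := congrArg (fun g : ↥R => ((g : GL (Fin 2) F) : Matrix (Fin 2) (Fin 2) F)) r2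
    simpa only [Subgroup.coe_mul, Units.val_mul, Subgroup.coe_one, Units.val_one] using this
  have m3 : ((i' : GL (Fin 2) F) : Matrix (Fin 2) (Fin 2) F) * (i' : GL (Fin 2) F) ≠ 1 := by
    intro h
    apply r3
    apply Subtype.ext
    apply Units.ext
    simpa only [Subgroup.coe_mul, Units.val_mul, Subgroup.coe_one, Units.val_one] using h
  have m4 : ((j' : GL (Fin 2) F) : Matrix (Fin 2) (Fin 2) F) * (i' : GL (Fin 2) F) =
      (((i' : GL (Fin 2) F) : Matrix (Fin 2) (Fin 2) F) * (i' : GL (Fin 2) F)) *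
        (i' : GL (Fin 2) F) * (j' : GL (Fin 2) F) := by
    have := congrArg (fun g : ↥R => ((g : GL (Fin 2) F) : Matrix (Fin 2) (Fin 2) F)) r4
    simpa only [Subgroup.coe_mul, Units.val_mul] using this
  obtain ⟨Im, hIm⟩ : ∃ Im : Matrix (Fin 2) (Fin 2) F, Im = ((i' : GL (Fin 2) F) : Matrix (Fin 2) (Fin 2) F) :=
    ⟨_, rfl⟩
  obtain ⟨Jm, hJm⟩ : ∃ Jm : Matrix (Fin 2) (Fin 2) F, Jm = ((j' : GL (Fin 2) F) : Matrix (Fin 2) (Fin 2) F) :=
    ⟨_, rfl⟩
  rw [← hIm, ← hJm] at m1 m4
  rw [← hIm] at m2 m3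
  have hdi : Im.det ≠ 0 := by rw [hIm]; exact det_ne _
  have hdj : Jm.det ≠ 0 := by rw [hJm]; exact det_ne _
  -- `Z = I²` has determinant one
  have hdz : (Im * Im).det = 1 := by
    have h := congrArg Matrix.det m4
    rw [Matrix.det_mul, Matrix.det_mul, Matrix.det_mul] at h
    have h' : (Im * Im).det * (Im.det * Jm.det) = 1 * (Im.det * Jm.det) := by
      linear_combination (-1 : F) * h
    exact mul_right_cancel₀ (mul_ne_zero hdi hdj) h'
  have hz : Im * Im = -1 := by
    have e := ch2 (Im * Im)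
    rw [m2, hdz, one_smul] at e
    have e2 : (Im * Im).trace • (Im * Im) = (2 : F) • (1 : Matrix (Fin 2) (Fin 2) F) := by
      rw [two_smul]
      exact (eq_sub_iff_add_eq.mp e).symm
    have ht : (Im * Im).trace ≠ 0 := by
      intro h0
      rw [h0, zero_smul] at e2
      have := congrFun (congrFun e2 0) 0
      simp at this
      exact h2 this.symm
    have e3 : Im * Im = ((Im * Im).trace⁻¹ * 2) • (1 : Matrix (Fin 2) (Fin 2) F) := by
      rw [← smul_smul, ← e2, smul_smul, inv_mul_cancel₀ ht, one_smul]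
    obtain ⟨c, hc⟩ : ∃ c : F, Im * Im = c • (1 : Matrix (Fin 2) (Fin 2) F) := ⟨_, e3⟩
    have hcc : c * c = 1 := by
      have := m2
      rw [hc] at this
      have := congrFun (congrFun this 0) 0
      simpa using this
    have hc1 : c ≠ 1 := by
      intro h1
      apply m3
      rw [hc, h1, one_smul]
    have hcm : c = -1 := by
      have h5 : (c - 1) * (c + 1) = 0 := by linear_combination hcc
      rcases mul_eq_zero.mp h5 with h6 | h6
      · exact absurd (by linear_combination h6) hc1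
      · linear_combination h6
    rw [hc, hcm]; simp
  refine ⟨i', j', i'.2, j'.2, ⟨?_, ?_, ?_⟩, ?_⟩
  · rw [← hIm]; exact hz
  · rw [← hJm, m1]; exact hz
  · rw [← hIm, ← hJm, m4, hz]; simp
  · intro h hh
    obtain ⟨m, hm | hm⟩ := r5 ⟨h, hh⟩
    · refine ⟨m, Or.inl ?_⟩
      have := congrArg (fun g : ↥R => (g : GL (Fin 2) F)) hm
      simpa using this
    · refine ⟨m, Or.inr ?_⟩
      have := congrArg (fun g : ↥R => (g : GL (Fin 2) F)) hm
      simpa using this

end grp

section main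
variable {F : Type*} [Field F]

theorem mem_sl (g : GL (Fin 2) F) :
    g ∈ Cfsg.Geo.specialLinear (Fin 2) F ↔ (g : Matrix (Fin 2) (Fin 2) F).det = 1 := by
  unfold Cfsg.Geo.specialLinear
  rw [MonoidHom.mem_ker, Units.ext_iff, Matrix.GeneralLinearGroup.val_det_apply]
  rfl

/-- the Hurwitz unit as an element of `GL₂`, normalizing `R` -/
theorem exists_s (h2 : (2 : F) ≠ 0) (R : Subgroup (GL (Fin 2) F)) (i j : GL (Fin 2) F)
    (hi : i ∈ R) (hj : j ∈ R)
    (q : QRel (i : Matrix (Fin 2) (Fin 2) F) (j : Matrix (Fin 2) (Fin 2) F))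
    (hgen : ∀ h ∈ R, ∃ m : ℕ, h = i ^ m ∨ h = j * i ^ m) :
    ∃ s : GL (Fin 2) F, s ∈ Subgroup.normalizer (R : Set (GL (Fin 2) F)) ∧
      (s : Matrix (Fin 2) (Fin 2) F).det = 1 ∧ (s : Matrix (Fin 2) (Fin 2) F).trace = -1 := by
  have hc := q.s_cube h2
  obtain ⟨s, hs⟩ : ∃ s : GL (Fin 2) F, (s : Matrix (Fin 2) (Fin 2) F) =
      Sm (i : Matrix (Fin 2) (Fin 2) F) (j : Matrix (Fin 2) (Fin 2) F) :=
    ⟨⟨Sm _ _, Sm _ _ * Sm _ _, by rw [← Matrix.mul_assoc]; exact hc, hc⟩, rfl⟩
  have hs3 : s * s * s = 1 := by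
    apply Units.ext
    rw [Units.val_mul, Units.val_mul, hs]; exact hc
  have hsi : s * i * s⁻¹ = i * j := by
    rw [mul_inv_eq_iff_eq_mul]
    apply Units.ext
    rw [Units.val_mul, Units.val_mul, Units.val_mul, hs]
    exact q.s_i
  have hsj : s * j * s⁻¹ = i := by
    rw [mul_inv_eq_iff_eq_mul]
    apply Units.ext
    rw [Units.val_mul, Units.val_mul, hs]
    exact q.s_j
  have hfwd : ∀ h ∈ R, s * h * s⁻¹ ∈ R := by
    intro h hh
    obtain ⟨m, rfl | rfl⟩ := hgen h hh
    · rw [← conj_pow, hsi]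
      exact R.pow_mem (R.mul_mem hi hj) m
    · have e : s * (j * i ^ m) * s⁻¹ = (s * j * s⁻¹) * (s * i * s⁻¹) ^ m := by
        rw [conj_pow]; group
      rw [e, hsi, hsj]
      exact R.mul_mem hi (R.pow_mem (R.mul_mem hi hj) m)
  refine ⟨s, ?_, ?_, ?_⟩
  · rw [Subgroup.mem_normalizer_iff]
    intro h
    refine ⟨hfwd h, fun hh => ?_⟩
    have h1 := hfwd _ (hfwd _ hh)
    have e : s * (s * (s * h * s⁻¹) * s⁻¹) * s⁻¹ = h := by
      have hs' : s⁻¹ = s * s := by
        rw [inv_eq_iff_mul_eq_one, ← mul_assoc]; exact hs3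
      calc s * (s * (s * h * s⁻¹) * s⁻¹) * s⁻¹ = (s * s * s) * h * (s⁻¹ * s⁻¹ * s⁻¹) := by group
        _ = h := by
          have : s⁻¹ * s⁻¹ * s⁻¹ = 1 := by
            rw [← mul_inv_rev, ← mul_inv_rev, ← mul_assoc, hs3, inv_one]
          rw [hs3, this, one_mul, mul_one]
    rwa [e] at h1
  · rw [hs]; exact q.det_s h2
  · rw [hs]; exact q.tr_s h2

/-- trace-conjugacy inside `SL₂`, in `GL₂` language -/
theorem conj_sl [Fintype F] (hodd : Fintype.card F % 2 = 1) (x h : GL (Fin 2) F)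
    (hx : (x : Matrix (Fin 2) (Fin 2) F).det = 1) (hh : (h : Matrix (Fin 2) (Fin 2) F).det = 1)
    (t : F) (htx : (x : Matrix (Fin 2) (Fin 2) F).trace = t)
    (hth : (h : Matrix (Fin 2) (Fin 2) F).trace = t) (ht : t ^ 2 ≠ 4) :
    ∃ g ∈ Cfsg.Geo.specialLinear (Fin 2) F, g⁻¹ * x * g = h := by
  obtain ⟨P, hP⟩ := Cfsg.Agent.S2455.conj_of_trace
    (⟨(x : Matrix (Fin 2) (Fin 2) F), hx⟩ : Matrix.SpecialLinearGroup (Fin 2) F)
    ⟨(h : Matrix (Fin 2) (Fin 2) F), hh⟩ t htx hth ht
    (Cfsg.Agent.S2455.univ_odd hodd t ht)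
  refine ⟨(Matrix.SpecialLinearGroup.toGL P)⁻¹, ?_, ?_⟩
  · apply Subgroup.inv_mem
    rw [mem_sl]
    exact P.2
  · rw [inv_inv, mul_inv_eq_iff_eq_mul]
    apply Units.ext
    rw [Units.val_mul, Units.val_mul]
    have h1 : P * ⟨(x : Matrix (Fin 2) (Fin 2) F), hx⟩ =
        ⟨(h : Matrix (Fin 2) (Fin 2) F), hh⟩ * P := by
      rw [← hP]; group
    have h2 := congrArg (fun A : Matrix.SpecialLinearGroup (Fin 2) F => A.1) h1
    exact h2

end main

/-- an element of prime order `≥ 5` normalizing a group of order `8` with a central involution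
centralizes it -/
theorem centralizes {G : Type*} [Group G] (R : Subgroup G) [Finite ↥R] (hcard : Nat.card ↥R = 8)
    (z : G) (hzR : z ∈ R) (hz1 : z ≠ 1) (y : G) (hzy : y * z = z * y)
    (hy : y ∈ Subgroup.normalizer (R : Set G)) (r : ℕ) [Fact r.Prime] (hr2 : r ≠ 2) (hr3 : r ≠ 3)
    (hyr : y ^ r = 1) : ∀ h ∈ R, y * h = h * y := by
  classical
  haveI : Fintype ↥R := Fintype.ofFinite _
  let f : Function.End ↥R := fun h => ⟨y * h * y⁻¹, (Subgroup.mem_normalizer_iff.mp hy h).mp h.2⟩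
  have hfn : ∀ (n : ℕ) (h : ↥R), ((f ^ n) h : G) = y ^ n * h * (y ^ n)⁻¹ := by
    intro n
    induction n with
    | zero => intro h; rw [pow_zero, pow_zero, one_mul, inv_one, mul_one]; rfl
    | succ n ih =>
      intro h
      rw [pow_succ]
      show (((f ^ n) (f h) : ↥R) : G) = _
      rw [ih]
      show y ^ n * (y * h * y⁻¹) * (y ^ n)⁻¹ = _
      rw [pow_succ, mul_inv_rev]
      group
  have hf : f ^ r ^ 1 = 1 := by
    rw [pow_one]
    funext h
    apply Subtype.ext
    rw [hfn, hyr, one_mul, inv_one, mul_one]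
    rfl
  have hmod := Equiv.Perm.card_fixedPoints_modEq (p := r) (n := 1) hf
  let C : Subgroup ↥R := (Subgroup.centralizer ({y} : Set G)).subgroupOf R
  have hmemC : ∀ h : ↥R, h ∈ C ↔ y * (h : G) = h * y := by
    intro h
    simp only [C, Subgroup.mem_subgroupOf, Subgroup.mem_centralizer_iff, Set.mem_singleton_iff,
      forall_eq]
  have hfix : Function.fixedPoints f = (C : Set ↥R) := by
    ext h
    rw [SetLike.mem_coe, hmemC]
    constructor
    · intro e
      have e' : y * (h : G) * y⁻¹ = h := congrArg Subtype.val e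
      exact mul_inv_eq_iff_eq_mul.mp e'
    · intro e
      apply Subtype.ext
      exact mul_inv_eq_iff_eq_mul.mpr e
  have hcC : Fintype.card (Function.fixedPoints f) = Nat.card C := by
    rw [← Nat.card_eq_fintype_card, hfix]
    rfl
  have hC8 : Nat.card C ∣ 8 := hcard ▸ Subgroup.card_subgroup_dvd_card C
  have hC2 : 1 < Nat.card C := by
    rw [Subgroup.one_lt_card_iff_ne_bot]
    intro hb
    have hzC : (⟨z, hzR⟩ : ↥R) ∈ C := (hmemC _).mpr hzy
    rw [hb, Subgroup.mem_bot] at hzC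
    exact hz1 (congrArg Subtype.val hzC)
  have hrp : r.Prime := Fact.out
  have hr5 : 5 ≤ r := by
    have h2 := hrp.two_le
    by_contra hlt
    push Not at hlt
    have h4 : r = 4 := by omega
    rw [h4] at hrp
    norm_num at hrp
  have hCtop : Nat.card C = 8 := by
    rw [← Nat.card_eq_fintype_card, hcard, hcC] at hmod
    have hle : Nat.card C ≤ 8 := Nat.le_of_dvd (by norm_num) hC8
    have hd : r ∣ 8 - Nat.card C := (Nat.modEq_iff_dvd' hle).mp hmod.symm
    by_contra hne
    have hpos : 0 < 8 - Nat.card C := by omega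
    have hle2 := Nat.le_of_dvd hpos hd
    have hc : Nat.card C = 2 ∨ Nat.card C = 3 := by omega
    rcases hc with hc | hc
    · rw [hc] at hd
      have h6 : r = 5 ∨ r = 6 := by omega
      rcases h6 with h6 | h6
      · rw [h6] at hd; omega
      · rw [h6] at hrp; norm_num at hrp
    · rw [hc] at hC8; omega
  have hCeq : C = ⊤ := Subgroup.eq_top_of_card_eq C (by rw [hCtop, hcard])
  intro h hh
  have hm : (⟨h, hh⟩ : ↥R) ∈ C := by rw [hCeq]; exact Subgroup.mem_top _
  exact (hmemC _).mp hm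

section key
variable {F : Type*} [Field F] [Fintype F]

theorem key {p : ℕ} [Fact p.Prime] [CharP F p] (hF : Fintype.card F = p) (hp : 5 ≤ p)
    (R : Subgroup (GL (Fin 2) F)) (hR : Nonempty (↥R ≃* QuaternionGroup 2))
    (r : ℕ) [Fact r.Prime]
    (hΩ : r ∣ (Cfsg.Geo.subgroupNormalizer R).relIndex (Cfsg.Geo.specialLinear (Fin 2) F)) :
    (∀ x ∈ Cfsg.Geo.specialLinear (Fin 2) F,
      (∃ z : F, ((x ^ r : GL (Fin 2) F) : Matrix (Fin 2) (Fin 2) F) =
        z • (1 : Matrix (Fin 2) (Fin 2) F)) →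
      (∀ z : F, (x : Matrix (Fin 2) (Fin 2) F) ≠ z • (1 : Matrix (Fin 2) (Fin 2) F)) →
      ∃ g ∈ Cfsg.Geo.specialLinear (Fin 2) F, g⁻¹ * x * g ∈ Cfsg.Geo.subgroupNormalizer R) ↔
      (r = 2 ∨ r = 3) := by
  classical
  have hpp : p.Prime := Fact.out
  have hn : ∀ n : ℕ, 0 < n → n < 5 → ((n : ℕ) : F) ≠ 0 := by
    intro n h0 h5 h
    rw [CharP.cast_eq_zero_iff F p] at h
    have := Nat.le_of_dvd h0 h
    omega
  have h2 : (2 : F) ≠ 0 := by
    have := hn 2 (by norm_num) (by norm_num); exact_mod_cast this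
  have h3 : (3 : F) ≠ 0 := by
    have := hn 3 (by norm_num) (by norm_num); exact_mod_cast this
  have h4 : (4 : F) ≠ 0 := by
    have := hn 4 (by norm_num) (by norm_num); exact_mod_cast this
  have hodd : Fintype.card F % 2 = 1 := by
    rw [hF]
    rcases hpp.eq_two_or_odd with h | h <;> omega
  obtain ⟨i, j, hi, hj, q, hgen⟩ := exists_gen h2 R hR
  obtain ⟨s, hsN, hsd, hst⟩ := exists_s h2 R i j hi hj q hgen
  have hiN : i ∈ Subgroup.normalizer (R : Set (GL (Fin 2) F)) := Subgroup.le_normalizer hi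
  unfold Cfsg.Geo.subgroupNormalizer
  constructor
  · intro H
    by_contra hr
    push Not at hr
    have hrp : r.Prime := Fact.out
    have hdvd : r ∣ Nat.card ↥(Cfsg.Geo.specialLinear (Fin 2) F) :=
      hΩ.trans (Subgroup.relIndex_dvd_card _ _)
    obtain ⟨x, hx⟩ := exists_prime_orderOf_dvd_card' r hdvd
    have hxr : (x : GL (Fin 2) F) ^ r = 1 := by
      have h1 := pow_orderOf_eq_one x
      rw [hx] at h1
      have h2' := congrArg Subtype.val h1
      simpa using h2'
    have hns : ∀ z : F, ((x : GL (Fin 2) F) : Matrix (Fin 2) (Fin 2) F) ≠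
        z • (1 : Matrix (Fin 2) (Fin 2) F) := by
      intro z hz
      have hd := (mem_sl _).mp x.2
      rw [hz] at hd
      have hzz : z * z = 1 := by
        simpa [Matrix.det_smul, pow_two] using hd
      have hx2 : x ^ 2 = 1 := by
        apply Subtype.ext
        apply Units.ext
        rw [Subgroup.coe_pow, Units.val_pow_eq_pow_val, hz, pow_two]
        simp [smul_smul, hzz]
      have h5 := orderOf_dvd_of_pow_eq_one hx2
      rw [hx] at h5
      exact hr.1 ((Nat.prime_dvd_prime_iff_eq hrp Nat.prime_two).mp h5)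
    obtain ⟨g, hg, hy⟩ := H x x.2 ⟨1, by rw [hxr]; simp⟩ hns
    have hyr : (g⁻¹ * (x : GL (Fin 2) F) * g) ^ r = 1 := by
      have e : (g⁻¹ * (x : GL (Fin 2) F) * g) ^ r = g⁻¹ * (x : GL (Fin 2) F) ^ r * g := by
        have := conj_pow (a := g⁻¹) (b := (x : GL (Fin 2) F)) (i := r)
        rw [inv_inv] at this
        exact this
      rw [e, hxr]; group
    haveI : Finite ↥R := Finite.of_equiv (QuaternionGroup 2) hR.some.symm.toEquiv
    have hcard : Nat.card ↥R = 8 := by
      rw [Nat.card_congr hR.some.toEquiv, Nat.card_eq_fintype_card, QuaternionGroup.card]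
    have hz1 : i * i ≠ 1 := by
      intro h
      have h' := congrArg (fun u : GL (Fin 2) F => (u : Matrix (Fin 2) (Fin 2) F) 0 0) h
      simp only [Units.val_mul, q.ii] at h'
      simp at h'
      apply h2
      linear_combination (-1 : F) * h'
    have hzc : (g⁻¹ * (x : GL (Fin 2) F) * g) * (i * i) = (i * i) * (g⁻¹ * (x : GL (Fin 2) F) * g) := by
      apply Units.ext
      rw [Units.val_mul, Units.val_mul (i * i), Units.val_mul i i, q.ii]
      simp
    have hcent := centralizes R hcard (i * i) (R.mul_mem hi hi) hz1 _ hzc hy r hr.1 hr.2 hyr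
    have hYI := congrArg (fun u : GL (Fin 2) F => (u : Matrix (Fin 2) (Fin 2) F)) (hcent i hi)
    have hYJ := congrArg (fun u : GL (Fin 2) F => (u : Matrix (Fin 2) (Fin 2) F)) (hcent j hj)
    simp only [Units.val_mul] at hYI hYJ
    obtain ⟨c, hc⟩ := q.scalar_of_comm h2 _ hYI hYJ
    apply hns c
    have hxg : (x : GL (Fin 2) F) = g * (g⁻¹ * (x : GL (Fin 2) F) * g) * g⁻¹ := by group
    have h6 := congrArg (fun u : GL (Fin 2) F => (u : Matrix (Fin 2) (Fin 2) F)) hxg
    simp only [Units.val_mul] at h6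
    rw [h6, hc]
    simp
  · intro hr x hx hz hns
    rw [mem_sl] at hx
    have hch := ch2 (x : Matrix (Fin 2) (Fin 2) F)
    rw [hx, one_smul] at hch
    obtain ⟨z, hz⟩ := hz
    rcases hr with rfl | rfl
    · rw [Units.val_pow_eq_pow_val, pow_two, hch] at hz
      have ht : (x : Matrix (Fin 2) (Fin 2) F).trace = 0 := by
        by_contra ht
        apply hns ((x : Matrix (Fin 2) (Fin 2) F).trace⁻¹ * (z + 1))
        have e : (x : Matrix (Fin 2) (Fin 2) F).trace • (x : Matrix (Fin 2) (Fin 2) F) =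
            (z + 1) • (1 : Matrix (Fin 2) (Fin 2) F) := by
          rw [add_smul, one_smul, ← hz]; abel
        rw [← smul_smul, ← e, smul_smul, inv_mul_cancel₀ ht, one_smul]
      obtain ⟨g, hg, hgx⟩ := conj_sl hodd x i hx (q.det_i h2) 0 ht (q.tr_i h2)
        (by intro h; apply h4; linear_combination (-1 : F) * h)
      exact ⟨g, hg, by rw [hgx]; exact hiN⟩
    · rw [Units.val_pow_eq_pow_val, pow_succ, pow_two, hch, Matrix.sub_mul, Matrix.smul_mul, hch,
        Matrix.one_mul] at hz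
      have e : ((x : Matrix (Fin 2) (Fin 2) F).trace ^ 2 - 1) • (x : Matrix (Fin 2) (Fin 2) F) =
          (z + (x : Matrix (Fin 2) (Fin 2) F).trace) • (1 : Matrix (Fin 2) (Fin 2) F) := by
        rw [add_smul, ← hz, smul_sub, smul_smul, sub_smul, one_smul, pow_two]; abel
      have ht : (x : Matrix (Fin 2) (Fin 2) F).trace ^ 2 - 1 = 0 := by
        by_contra ht
        apply hns (((x : Matrix (Fin 2) (Fin 2) F).trace ^ 2 - 1)⁻¹ *
          (z + (x : Matrix (Fin 2) (Fin 2) F).trace))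
        rw [← smul_smul, ← e, smul_smul, inv_mul_cancel₀ ht, one_smul]
      have ht2 : (x : Matrix (Fin 2) (Fin 2) F).trace = 1 ∨
          (x : Matrix (Fin 2) (Fin 2) F).trace = -1 := by
        have h5 : ((x : Matrix (Fin 2) (Fin 2) F).trace - 1) *
            ((x : Matrix (Fin 2) (Fin 2) F).trace + 1) = 0 := by linear_combination ht
        rcases mul_eq_zero.mp h5 with h6 | h6
        · left; linear_combination h6
        · right; linear_combination h6
      have h14 : ∀ t : F, (t = 1 ∨ t = -1) → t ^ 2 ≠ 4 := by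
        intro t ht' h
        apply h3
        rcases ht' with rfl | rfl <;> linear_combination (-1 : F) * h
      rcases ht2 with ht1 | ht1
      · -- target `-s`
        have hm : ((i * i * s : GL (Fin 2) F) : Matrix (Fin 2) (Fin 2) F) = -(s : Matrix (Fin 2) (Fin 2) F) := by
          rw [Units.val_mul, Units.val_mul, q.ii]; simp
        obtain ⟨g, hg, hgx⟩ := conj_sl hodd x (i * i * s) hx
          (by rw [Units.val_mul, Units.val_mul, Matrix.det_mul, Matrix.det_mul, q.det_i h2, hsd]; ring)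
          1 ht1 (by rw [hm, Matrix.trace_neg, hst]; ring) (h14 1 (Or.inl rfl))
        exact ⟨g, hg, by rw [hgx]; exact Subgroup.mul_mem _ (Subgroup.mul_mem _ hiN hiN) hsN⟩
      · obtain ⟨g, hg, hgx⟩ := conj_sl hodd x s hx hsd (-1) ht1 hst (h14 (-1) (Or.inr rfl))
        exact ⟨g, hg, by rw [hgx]; exact hsN⟩

end key

end Cfsg.Agent.Helper15.QN
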